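import Cfsg.Agent.EqOrderConj.PGroup
import Cfsg.Prelude.Def_Transfer
import Cfsg.Agent.ZStar.Main

/-!
# Groups in which p-subgroups of equal order are conjugate: Sylow structure
-/

set_option autoImplicit false
set_option linter.style.haveILetI false
set_option linter.unusedSectionVars false

namespace CfsgLib.EqOrderConj

open Subgroup

universe u

/-- A parity homomorphism on the quaternion group of order `2^(k+2)`. -/
def qParity (k : ℕ) (hk : 1 ≤ k) : QuaternionGroup (2 ^ k) →* Multiplicative (ZMod 2) where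
  toFun q := match q with
    | .a i => Multiplicative.ofAdd (ZMod.castHom (dvd_mul_right 2 (2 ^ k)) (ZMod 2) i)
    | .xa i => Multiplicative.ofAdd (ZMod.castHom (dvd_mul_right 2 (2 ^ k)) (ZMod 2) i)
  map_one' := by
    show Multiplicative.ofAdd (ZMod.castHom _ (ZMod 2) (0 : ZMod (2 * 2 ^ k))) = 1
    rw [map_zero]; rfl
  map_mul' := by
    have h2 : ∀ a : ZMod 2, a + a = 0 := by decide
    have hn : ZMod.castHom (dvd_mul_right 2 (2 ^ k)) (ZMod 2) ((2 ^ k : ℕ) : ZMod (2 * 2 ^ k)) = 0 := by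
      rw [map_natCast, ZMod.natCast_eq_zero_iff_even, Nat.even_pow]
      exact ⟨even_two, by omega⟩
    rintro (i | i) (j | j) <;>
      simp only [QuaternionGroup.a_mul_a, QuaternionGroup.a_mul_xa, QuaternionGroup.xa_mul_a,
        QuaternionGroup.xa_mul_xa, ← ofAdd_add, map_add, map_sub]
    · congr 1; linear_combination -h2 (ZMod.castHom (dvd_mul_right 2 (2 ^ k)) (ZMod 2) i)
    · congr 1; rw [hn]; linear_combination -h2 (ZMod.castHom (dvd_mul_right 2 (2 ^ k)) (ZMod 2) i)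

theorem quaternion_small {k : ℕ} (hk : 1 ≤ k) (hiso : IsoByOrder (QuaternionGroup (2 ^ k))) : k = 1 := by
  by_contra hne
  haveI : NeZero (2 ^ k) := ⟨by positivity⟩
  set f := qParity k hk with hf
  have hfs : Function.Surjective f := by
    intro q
    have h2 : ∀ q : Multiplicative (ZMod 2), q = 1 ∨ q = Multiplicative.ofAdd 1 := by decide
    rcases h2 q with rfl | rfl
    · exact ⟨1, map_one f⟩
    · refine ⟨QuaternionGroup.a 1, ?_⟩
      show Multiplicative.ofAdd (ZMod.castHom _ (ZMod 2) (1 : ZMod (2 * 2 ^ k))) = _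
      rw [map_one]
  have hK : Nat.card f.ker = 2 * 2 ^ k := by
    have h := f.ker.card_mul_index
    rw [Subgroup.index_ker, MonoidHom.range_eq_top.2 hfs, Subgroup.card_top,
      Nat.card_eq_fintype_card (α := QuaternionGroup (2 ^ k)), QuaternionGroup.card] at h
    simp only [Nat.card_eq_fintype_card (α := Multiplicative (ZMod 2)), Fintype.card_multiplicative, ZMod.card] at h
    omega
  have ha : Nat.card (zpowers (QuaternionGroup.a 1 : QuaternionGroup (2 ^ k))) = 2 * 2 ^ k := by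
    rw [Nat.card_zpowers, QuaternionGroup.orderOf_a_one]
  obtain ⟨e⟩ := hiso _ _ (ha.trans hK.symm)
  have hc := transfer_comm e inferInstance
  have h1 : (QuaternionGroup.a 2 : QuaternionGroup (2 ^ k)) ∈ f.ker := by
    rw [MonoidHom.mem_ker]
    show Multiplicative.ofAdd (ZMod.castHom _ (ZMod 2) (2 : ZMod (2 * 2 ^ k))) = 1
    rw [map_ofNat]; rfl
  have h2 : (QuaternionGroup.xa 0 : QuaternionGroup (2 ^ k)) ∈ f.ker := by
    rw [MonoidHom.mem_ker]
    show Multiplicative.ofAdd (ZMod.castHom _ (ZMod 2) (0 : ZMod (2 * 2 ^ k))) = 1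
    rw [map_zero]; rfl
  have h := mul_comm_of_le hc h1 h2
  rw [QuaternionGroup.a_mul_xa, QuaternionGroup.xa_mul_a] at h
  have h4 : ((4 : ℕ) : ZMod (2 * 2 ^ k)) = 0 := by
    have := QuaternionGroup.xa.inj h
    push_cast
    linear_combination -this
  rw [ZMod.natCast_eq_zero_iff] at h4
  have h8 := Nat.le_of_dvd (by norm_num) h4
  have : 2 ^ 2 ≤ 2 ^ k := Nat.pow_le_pow_right (by norm_num) (by omega)
  omega

theorem structure_of_iso {P : Type u} [Group P] [Finite P] {p : ℕ} [hp : Fact p.Prime] (hP : IsPGroup p P)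
    (hiso : IsoByOrder P) :
    IsCyclic P ∨ (IsMulCommutative P ∧ ∀ x : P, x ^ p = 1) ∨ Nonempty (P ≃* QuaternionGroup 2) ∨
      (p ≠ 2 ∧ (∀ x : P, x ^ p = 1) ∧ ¬ IsMulCommutative P ∧ Nat.card P = p ^ 3) := by
  by_cases hexp : ∀ x : P, x ^ p = 1
  · by_cases hc : IsMulCommutative P
    · exact Or.inr (Or.inl ⟨hc, hexp⟩)
    refine Or.inr (Or.inr (Or.inr ⟨?_, hexp, hc, card_eq_cube hP hiso hexp hc⟩))
    rintro rfl
    apply hc
    refine ⟨⟨fun a b => ?_⟩⟩
    have h : ∀ x : P, x⁻¹ = x := fun x => inv_eq_of_mul_eq_one_right (by rw [← pow_two]; exact hexp x)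
    calc a * b = (a * b)⁻¹ := (h _).symm
      _ = b * a := by rw [mul_inv_rev, h, h]
  · obtain ⟨a, ha⟩ := not_forall.1 hexp
    rcases CfsgLib.RankOneP.isCyclic_or_quaternion hP (unique_of_exists_sq hP hiso ha) with h | ⟨-, k, hk, ⟨e⟩⟩
    · exact Or.inl h
    refine Or.inr (Or.inr (Or.inl ?_))
    have hq : IsoByOrder (QuaternionGroup (2 ^ k)) := by
      intro H K h
      obtain ⟨f⟩ := hiso (H.map e.symm.toMonoidHom) (K.map e.symm.toMonoidHom)
        (by rw [Subgroup.card_map_of_injective e.symm.injective, Subgroup.card_map_of_injective e.symm.injective, h])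
      exact ⟨((H.equivMapOfInjective _ e.symm.injective).trans f).trans
        (K.equivMapOfInjective _ e.symm.injective).symm⟩
    have hk1 := quaternion_small hk hq
    subst hk1
    exact ⟨e⟩

theorem conj_iterate {G : Type u} [Group G] {u x z : G} {a : ℤ} (hz : Commute u z) (hxz : Commute x z)
    (h : u * x * u⁻¹ = x * z ^ a) (i : ℕ) :
    u ^ i * x * (u ^ i)⁻¹ = x * z ^ (a * i) := by
  induction i with
  | zero => simp
  | succ i ih =>
    calc u ^ (i + 1) * x * (u ^ (i + 1))⁻¹ = u * (u ^ i * x * (u ^ i)⁻¹) * u⁻¹ := by rw [pow_succ']; group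
      _ = (u * x * u⁻¹) * (u * z ^ (a * i) * u⁻¹) := by rw [ih]; group
      _ = x * z ^ (a * ((i + 1 : ℕ) : ℤ)) := by
        rw [h, (hz.zpow_right _).eq, mul_inv_cancel_right, mul_assoc, ← zpow_add]
        push_cast; ring_nf

/-- Two transvections generate an element whose square inverts. -/
theorem exists_two_element {G : Type u} [Group G] [Finite G] {p : ℕ} [hp : Fact p.Prime] {u v x z : G}
    (hx : x ^ p = 1) (hz : z ^ p = 1) (hxz : Commute x z) {a b : ℤ} (ha : ¬ (p : ℤ) ∣ a) (hb : ¬ (p : ℤ) ∣ b)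
    (huz : Commute u z) (hux : u * x * u⁻¹ = x * z ^ a) (hvx : Commute v x) (hvz : v * z * v⁻¹ = z * x ^ b) :
    ∃ r : G, (∃ k : ℕ, r ^ 2 ^ k = 1) ∧ (∀ N : Subgroup G, u ∈ N → v ∈ N → r ∈ N) ∧
      (r * r) * z * (r * r)⁻¹ = z⁻¹ := by
  have hinv : ∀ (c d : ℤ), ¬ (p : ℤ) ∣ c → ∃ i : ℕ, ((p : ℤ) ∣ c * i - d) := by
    intro c d hc
    have hc0 : (c : ZMod p) ≠ 0 := fun h => hc ((ZMod.intCast_zmod_eq_zero_iff_dvd c p).1 h)
    refine ⟨((d : ZMod p) * (c : ZMod p)⁻¹).val, ?_⟩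
    rw [← ZMod.intCast_zmod_eq_zero_iff_dvd]
    push_cast
    rw [ZMod.natCast_zmod_val, mul_comm (d : ZMod p), ← mul_assoc, mul_inv_cancel₀ hc0, one_mul, sub_self]
  have hred : ∀ (g : G) (m n : ℤ), g ^ p = 1 → (p : ℤ) ∣ m - n → g ^ m = g ^ n := by
    intro g m n hg h
    rw [← mul_inv_eq_one, ← zpow_sub]
    obtain ⟨q, hq⟩ := h
    rw [hq, zpow_mul, zpow_natCast, hg, one_zpow]
  obtain ⟨i, hi⟩ := hinv a 1 ha
  obtain ⟨j, hj⟩ := hinv b (-1) hb
  have e1 : u ^ i * x * (u ^ i)⁻¹ = x * z := by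
    rw [conj_iterate huz hxz hux i, hred z _ _ hz hi, zpow_one]
  have e2 : v ^ j * z * (v ^ j)⁻¹ = z * x⁻¹ := by
    rw [conj_iterate hvx hxz.symm hvz j, hred x _ _ hx hj, zpow_neg_one]
  have c1 : u ^ i * z * (u ^ i)⁻¹ = z := by rw [(huz.pow_left i).eq, mul_inv_cancel_right]
  have c2 : v ^ j * x * (v ^ j)⁻¹ = x := by rw [(hvx.pow_left j).eq, mul_inv_cancel_right]
  set f := MulAut.conj (u ^ i) with hf
  set g := MulAut.conj (v ^ j) with hg
  have f1 : f x = x * z := e1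
  have f2 : f z = z := c1
  have g1 : g z = z * x⁻¹ := e2
  have g2 : g x = x := c2
  set w := u ^ i * v ^ j * u ^ i with hw
  have hwc : ∀ y : G, w * y * w⁻¹ = f (g (f y)) := fun y => by
    simp only [hf, hg, hw, MulAut.conj_apply]; group
  have w1 : w * z * w⁻¹ = x⁻¹ := by
    rw [hwc, f2, g1, map_mul, map_inv, f1, f2, mul_inv_rev, ← mul_assoc, mul_inv_cancel, one_mul]
  have w2 : w * x * w⁻¹ = z := by
    rw [hwc, f1, map_mul g, g2, g1, ← mul_assoc, hxz.eq, mul_inv_cancel_right, f2]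
  obtain ⟨k, m, hm, hkm⟩ := Nat.exists_eq_pow_mul_and_not_dvd (orderOf_pos w).ne' 2 (by norm_num)
  refine ⟨w ^ m, ⟨k, ?_⟩, fun N hu hv => pow_mem (mul_mem (mul_mem (pow_mem hu i) (pow_mem hv j)) (pow_mem hu i)) m, ?_⟩
  · rw [← pow_mul, mul_comm, ← hkm, pow_orderOf_eq_one]
  · have hsq : (w * w) * z * (w * w)⁻¹ = z⁻¹ := by
      calc (w * w) * z * (w * w)⁻¹ = w * (w * z * w⁻¹) * w⁻¹ := by group
        _ = (w * x * w⁻¹)⁻¹ := by rw [w1]; group
        _ = z⁻¹ := by rw [w2]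
    have hodd : Odd m := Nat.not_even_iff_odd.1 fun he => hm he.two_dvd
    have key : ∀ y : G, y * z * y⁻¹ = z⁻¹ → ∀ n : ℕ, y ^ n * z * (y ^ n)⁻¹ = z ^ ((-1 : ℤ) ^ n) := by
      intro y hy n
      induction n with
      | zero => simp
      | succ n ih =>
        rw [pow_succ' y]
        calc y * y ^ n * z * (y * y ^ n)⁻¹
            = y * (y ^ n * z * (y ^ n)⁻¹) * y⁻¹ := by group
          _ = _ := by rw [ih, ← conj_zpow, hy, inv_zpow', pow_succ, mul_neg_one]
    have h := key _ hsq m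
    rw [hodd.neg_one_pow, zpow_neg_one] at h
    rwa [← pow_two, ← pow_mul, mul_comm 2, pow_mul, pow_two] at h

end CfsgLib.EqOrderConj
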