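import Mathlib
import Cfsg.Agent.RankOneP.Basic

/-!
# p-groups in which subgroups of equal order are isomorphic
-/

set_option autoImplicit false
set_option linter.style.haveILetI false
set_option linter.unusedSectionVars false

namespace CfsgLib.EqOrderConj

open Subgroup

variable {P : Type*} [Group P]

/-- Equal order subgroups are isomorphic. -/
def IsoByOrder (P : Type*) [Group P] : Prop :=
  ∀ H K : Subgroup P, Nat.card H = Nat.card K → Nonempty (H ≃* K)

theorem mul_comm_of_le {H : Subgroup P} (hH : IsMulCommutative H) {x y : P} (hx : x ∈ H) (hy : y ∈ H) :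
    x * y = y * x :=
  congrArg Subtype.val (hH.is_comm.comm ⟨x, hx⟩ ⟨y, hy⟩)

theorem transfer_comm {H K : Subgroup P} (e : H ≃* K) (hH : IsMulCommutative H) : IsMulCommutative K :=
  ⟨⟨fun a b => e.symm.injective (by rw [map_mul, map_mul]; exact hH.is_comm.comm _ _)⟩⟩

theorem card_sup_le [Finite P] (H K : Subgroup P) (hK : K ≤ normalizer (H : Set P)) :
    Nat.card (H ⊔ K : Subgroup P) ≤ Nat.card H * Nat.card K := by
  have h := Subgroup.coe_mul_of_right_le_normalizer_left H K hK
  show Nat.card ((H ⊔ K : Subgroup P) : Set P) ≤ _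
  rw [h]
  exact Set.natCard_mul_le

theorem comm_sup_zpowers {H : Subgroup P} (hH : IsMulCommutative H) {x : P}
    (hx : ∀ h ∈ H, h * x = x * h) : IsMulCommutative (H ⊔ zpowers x : Subgroup P) := by
  have e : H ⊔ zpowers x = closure ((H : Set P) ∪ {x}) := by
    rw [Subgroup.closure_union, Subgroup.closure_eq, zpowers_eq_closure]
  rw [e]
  refine isMulCommutative_closure ?_
  rintro a (ha | ha) b (hb | hb)
  · exact mul_comm_of_le hH ha hb
  · rw [Set.mem_singleton_iff.1 hb]; exact hx a ha
  · rw [Set.mem_singleton_iff.1 ha]; exact (hx b hb).symm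
  · rw [Set.mem_singleton_iff.1 ha, Set.mem_singleton_iff.1 hb]

theorem card_center_lt [Finite P] (hnc : ¬ IsMulCommutative P) :
    Nat.card (center P) < Nat.card P := by
  refine lt_of_le_of_ne (Nat.le_of_dvd Nat.card_pos (card_subgroup_dvd_card _)) fun h => hnc ?_
  have h1 := Subgroup.eq_top_of_card_eq _ h
  exact ⟨⟨fun a b => Subgroup.mem_center_iff.1 (h1 ▸ mem_top b) a⟩⟩

theorem card_center_ne_prime_pred [Finite P] {p m : ℕ} (hp : p.Prime) (hnc : ¬ IsMulCommutative P)
    (hP : Nat.card P = p ^ (m + 1)) : Nat.card (center P) ≠ p ^ m := by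
  intro h
  apply hnc
  have hq := Subgroup.card_eq_card_quotient_mul_card_subgroup (center P)
  rw [hP, h, pow_succ'] at hq
  have hq' : Nat.card (P ⧸ center P) = p := (Nat.eq_of_mul_eq_mul_right (pow_pos hp.pos m) hq).symm
  haveI : IsCyclic (P ⧸ center P) := by
    haveI := Fact.mk hp
    exact isCyclic_of_prime_card hq'
  refine ⟨⟨fun a b => ?_⟩⟩
  exact commutative_of_cyclic_center_quotient (QuotientGroup.mk' (center P))
    (by rw [QuotientGroup.ker_mk']) a b

theorem abelian_card_le_sq [Finite P] {p : ℕ} [hp : Fact p.Prime] (hP : IsPGroup p P) (H : Subgroup P)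
    (h : Nat.card H ≤ p ^ 2) : IsMulCommutative H := by
  obtain ⟨n, hn⟩ := (hP.to_subgroup H).exists_card_eq
  have hn2 : n ≤ 2 := (Nat.pow_le_pow_iff_right hp.out.one_lt).1 (hn ▸ h)
  refine ⟨⟨fun a b => ?_⟩⟩
  interval_cases n
  · haveI := (Nat.card_eq_one_iff_unique.1 (hn.trans (pow_zero p))).1
    exact Subsingleton.elim _ _
  · haveI : IsCyclic H := isCyclic_of_prime_card (hn.trans (pow_one p))
    exact IsCyclic.commGroup.mul_comm a b
  · exact (IsPGroup.commutative_of_card_eq_prime_sq hn) a b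

theorem exists_secondCenter [Finite P] {p : ℕ} [hp : Fact p.Prime] (hP : IsPGroup p P)
    (hnc : ¬ IsMulCommutative P) :
    ∃ x : P, x ∉ center P ∧ ∀ y : P, x * y * x⁻¹ * y⁻¹ ∈ center P := by
  haveI : Nontrivial (P ⧸ center P) := by
    rw [← Finite.one_lt_card_iff_nontrivial]
    have h := Subgroup.card_eq_card_quotient_mul_card_subgroup (center P)
    have h2 := card_center_lt hnc
    by_contra hh
    have : Nat.card (P ⧸ center P) = 1 := le_antisymm (not_lt.1 hh) Nat.card_pos
    rw [this, one_mul] at h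
    omega
  haveI := (hP.to_quotient (center P)).center_nontrivial
  obtain ⟨⟨q, hq⟩, hq1⟩ := exists_ne (1 : center (P ⧸ center P))
  obtain ⟨x, rfl⟩ := QuotientGroup.mk'_surjective (center P) q
  refine ⟨x, fun hx => hq1 (Subtype.ext ((QuotientGroup.eq_one_iff x).2 hx)), fun y => ?_⟩
  rw [← QuotientGroup.eq_one_iff]
  have h := Subgroup.mem_center_iff.1 hq (QuotientGroup.mk' (center P) y)
  simp only [QuotientGroup.mk'_apply, QuotientGroup.mk_mul, QuotientGroup.mk_inv] at h ⊢
  rw [← h]; group

theorem card_eq_cube [Finite P] {p : ℕ} [hp : Fact p.Prime] (hP : IsPGroup p P)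
    (hiso : IsoByOrder P) (hexp : ∀ x : P, x ^ p = 1) (hnc : ¬ IsMulCommutative P) :
    Nat.card P = p ^ 3 := by
  obtain ⟨n, hn⟩ := hP.exists_card_eq
  have hp1 := hp.out.one_lt
  have hn3 : 3 ≤ n := by
    by_contra h
    apply hnc
    have h' := abelian_card_le_sq hP ⊤ (by rw [Subgroup.card_top, hn]; exact Nat.pow_le_pow_right hp.out.pos (by omega))
    exact ⟨⟨fun a b => mul_comm_of_le h' (mem_top a) (mem_top b)⟩⟩
  by_contra hne
  have hn4 : 4 ≤ n := by
    rcases Nat.lt_or_ge 3 n with h | h
    · exact h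
    · exact absurd (by rw [hn, show n = 3 by omega]) hne
  have hord : ∀ w : P, w ≠ 1 → Nat.card (zpowers w) = p := fun w hw => by
    rw [Nat.card_zpowers]; exact orderOf_eq_prime (hexp w) hw
  obtain ⟨x, hxZ, hxc⟩ := exists_secondCenter hP hnc
  obtain ⟨y, hy⟩ : ∃ y, y * x ≠ x * y := by
    by_contra h; push_neg at h; exact hxZ (Subgroup.mem_center_iff.2 h)
  have hx1 : x ≠ 1 := fun h => hxZ (h ▸ one_mem _)
  set c := x * y * x⁻¹ * y⁻¹ with hc
  have hc1 : c ≠ 1 := fun h => hy (by
    rw [hc, mul_inv_eq_one, mul_inv_eq_iff_eq_mul] at h; exact h.symm)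
  -- a non-abelian subgroup of order p^3
  obtain ⟨B, hBc, hBn⟩ : ∃ B : Subgroup P, Nat.card B = p ^ 3 ∧ ¬ IsMulCommutative B := by
    set D := zpowers c ⊔ zpowers x
    have hD : Nat.card D ≤ p ^ 2 := by
      refine (card_sup_le _ _ ?_).trans ?_
      · refine le_trans ?_ (Subgroup.centralizer_le_normalizer ..)
        rw [zpowers_le, mem_centralizer_iff]
        rintro w ⟨k, rfl⟩
        exact (Subgroup.mem_center_iff.1 (zpow_mem (hxc y) k) x).symm
      · rw [hord c hc1, hord x hx1, pow_two]
    have hyn : zpowers y ≤ normalizer (D : Set P) := by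
      rw [zpowers_le, Subgroup.mem_normalizer_iff]
      have key : ∀ w ∈ D, ∀ g ∈ ({y, y⁻¹} : Set P), g * w * g⁻¹ ∈ D := by
        intro w hw g hg
        have hgx : g * x * g⁻¹ ∈ D := by
          rcases hg with rfl | rfl
          · have e : g * x * g⁻¹ = c⁻¹ * x := by
              rw [hc]; group
            rw [e]
            exact mul_mem (mem_sup_left (inv_mem (mem_zpowers c))) (mem_sup_right (mem_zpowers x))
          · have e : y⁻¹ * x * y⁻¹⁻¹ = y⁻¹ * c * y * x := by rw [hc]; group
            have e2 : y⁻¹ * c * y = c := by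
              rw [Subgroup.mem_center_iff.1 (hxc y) y⁻¹, inv_mul_cancel_right]
            rw [e, e2]
            exact mul_mem (mem_sup_left (mem_zpowers c)) (mem_sup_right (mem_zpowers x))
        have hgc : g * c * g⁻¹ ∈ D := by
          rw [Subgroup.mem_center_iff.1 (hxc y) g, mul_inv_cancel_right]
          exact mem_sup_left (mem_zpowers c)
        have hle : D ≤ D.comap (MulAut.conj g).toMonoidHom :=
          sup_le (zpowers_le.2 hgc) (zpowers_le.2 hgx)
        exact hle hw
      intro w
      refine ⟨fun hw => key w hw y (Or.inl rfl), fun hw => ?_⟩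
      have := key _ hw y⁻¹ (Or.inr rfl)
      simpa [mul_assoc] using this
    have hy1 : y ≠ 1 := fun h => hy (by rw [h, one_mul, mul_one])
    have hB : Nat.card (D ⊔ zpowers y : Subgroup P) ≤ p ^ 3 := by
      refine (card_sup_le _ _ hyn).trans ?_
      rw [hord y hy1, pow_succ]
      exact Nat.mul_le_mul_right _ hD
    have hnB : ¬ IsMulCommutative (D ⊔ zpowers y : Subgroup P) := fun h =>
      hy (mul_comm_of_le h (mem_sup_right (mem_zpowers y)) (mem_sup_left (mem_sup_right (mem_zpowers x))))
    refine ⟨_, le_antisymm hB ?_, hnB⟩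
    obtain ⟨k, hk⟩ := (hP.to_subgroup (D ⊔ zpowers y)).exists_card_eq
    rw [hk]
    refine Nat.pow_le_pow_right hp.out.pos ?_
    by_contra h
    exact hnB (abelian_card_le_sq hP _ (by rw [hk]; exact Nat.pow_le_pow_right hp.out.pos (by omega)))
  -- an abelian subgroup of order p^3
  obtain ⟨A, hAc, hA⟩ : ∃ A : Subgroup P, p ^ 3 ≤ Nat.card A ∧ IsMulCommutative A := by
    obtain ⟨z, hz⟩ := (hP.to_subgroup (center P)).exists_card_eq
    have hZpos : 1 ≤ z := by
      haveI : Nontrivial P := ⟨⟨x, 1, hx1⟩⟩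
      haveI := hP.center_nontrivial
      have h2 : 1 < Nat.card (center P) := Finite.one_lt_card
      rw [hz] at h2
      by_contra h
      rw [show z = 0 by omega, pow_zero] at h2
      omega
    have hgt : ∀ (H : Subgroup P) (w : P) (k : ℕ), Nat.card H = p ^ k → w ∉ H →
        p ^ (k + 1) ≤ Nat.card (H ⊔ zpowers w : Subgroup P) := by
      intro H w k hk hw
      obtain ⟨j, hj⟩ := (hP.to_subgroup (H ⊔ zpowers w)).exists_card_eq
      have hlt : H < H ⊔ zpowers w :=
        lt_of_le_of_ne le_sup_left fun e => hw (e ▸ mem_sup_right (mem_zpowers w))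
      have : p ^ k < p ^ j := by
        rw [← hk, ← hj]
        refine lt_of_le_of_ne (Subgroup.card_le_of_le hlt.le) fun e => hlt.ne ?_
        exact Subgroup.eq_of_le_of_card_ge hlt.le e.ge
      rw [hj]
      exact Nat.pow_le_pow_right hp.out.pos ((Nat.pow_lt_pow_iff_right hp1).1 this)
    have hDab : IsMulCommutative (center P ⊔ zpowers x : Subgroup P) :=
      comm_sup_zpowers inferInstance fun h hh => (Subgroup.mem_center_iff.1 hh x).symm
    have hD := hgt (center P) x z hz hxZ
    rcases Nat.lt_or_ge 1 z with h | h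
    · exact ⟨_, le_trans (Nat.pow_le_pow_right hp.out.pos (by omega)) hD, hDab⟩
    have hz1 : z = 1 := by omega
    subst hz1
    -- the centralizer of x has index at most p
    let φ : P →* center P :=
      { toFun := fun w => ⟨x * w * x⁻¹ * w⁻¹, hxc w⟩
        map_one' := by apply Subtype.ext; simp
        map_mul' := fun a b => by
          apply Subtype.ext
          show x * (a * b) * x⁻¹ * (a * b)⁻¹ = (x * a * x⁻¹ * a⁻¹) * (x * b * x⁻¹ * b⁻¹)
          have h := Subgroup.mem_center_iff.1 (hxc b) a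
          calc x * (a * b) * x⁻¹ * (a * b)⁻¹
              = (x * a * x⁻¹) * (x * b * x⁻¹ * b⁻¹) * a⁻¹ := by group
            _ = (x * a * x⁻¹ * a⁻¹) * (a * (x * b * x⁻¹ * b⁻¹)) * a⁻¹ := by group
            _ = _ := by rw [h]; group }
    have hker : Nat.card P ≤ Nat.card φ.ker * p := by
      rw [← φ.ker.card_mul_index, Subgroup.index_ker]
      refine Nat.mul_le_mul_left _ ((Subgroup.card_le_card_group _).trans ?_)
      rw [hz, pow_one]
    obtain ⟨k, hk⟩ := (hP.to_subgroup φ.ker).exists_card_eq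
    have hk3 : 3 ≤ k := by
      rw [hn, hk, ← pow_succ] at hker
      have := (Nat.pow_le_pow_iff_right hp1).1 hker
      omega
    have hD2 : Nat.card (center P ⊔ zpowers x : Subgroup P) = p ^ 2 := by
      refine le_antisymm ((card_sup_le _ _ ?_).trans ?_) hD
      · intro w hw
        rw [Subgroup.normalizer_eq_top]; trivial
      · rw [hz, hord x hx1, pow_one, pow_two]
    obtain ⟨w, hwC, hwD⟩ : ∃ w ∈ φ.ker, w ∉ center P ⊔ zpowers x := by
      by_contra h
      push_neg at h
      have := Subgroup.card_le_of_le (fun w hw => h w hw : φ.ker ≤ center P ⊔ zpowers x)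
      rw [hk, hD2] at this
      have := (Nat.pow_le_pow_iff_right hp1).1 this
      omega
    have hxw : x * w = w * x := by
      have h1 : x * w * x⁻¹ * w⁻¹ = 1 := congrArg Subtype.val (MonoidHom.mem_ker.1 hwC)
      rw [mul_inv_eq_one, mul_inv_eq_iff_eq_mul] at h1
      exact h1
    refine ⟨_, hgt _ w 2 hD2 hwD, comm_sup_zpowers hDab ?_⟩
    intro h hh
    have hle : center P ⊔ zpowers x ≤ centralizer {w} := by
      refine sup_le (fun a ha => ?_) (zpowers_le.2 ?_)
      · exact mem_centralizer_singleton_iff.2 (Subgroup.mem_center_iff.1 ha w).symm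
      · exact mem_centralizer_singleton_iff.2 hxw
    exact mem_centralizer_singleton_iff.1 (hle hh)
  obtain ⟨A', hA'A, hA'c⟩ : ∃ A' : Subgroup P, A' ≤ A ∧ Nat.card A' = p ^ 3 := by
    obtain ⟨A', h1, h2⟩ := Sylow.exists_subgroup_card_pow_prime_le p (G := A)
      (by
        obtain ⟨j, hj⟩ := (hP.to_subgroup A).exists_card_eq
        rw [hj]
        exact pow_dvd_pow p ((Nat.pow_le_pow_iff_right hp1).1 (hj ▸ hAc)))
      ⊥ (by rw [Subgroup.card_bot, pow_zero]) (Nat.zero_le 3)
    exact ⟨A'.map A.subtype, Subgroup.map_subtype_le A',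
      (Nat.card_congr (A'.equivMapOfInjective A.subtype A.subtype_injective).toEquiv).symm.trans h1⟩
  obtain ⟨e⟩ := hiso A' B (by rw [hA'c, hBc])
  exact hBn (transfer_comm e ⟨⟨fun a b => Subtype.ext (mul_comm_of_le hA (hA'A a.2) (hA'A b.2))⟩⟩)

/-- The elements of order dividing `p` in a commutative subgroup. -/
def powMonoidHomSub (E : Subgroup P) (hE : IsMulCommutative E) (p : ℕ) : Subgroup E :=
  { carrier := {q | q ^ p = 1}
    one_mem' := one_pow p
    mul_mem' := fun {a b} ha hb => by
      show (a * b) ^ p = 1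
      rw [(show Commute a b from hE.is_comm.comm a b).mul_pow, ha, hb, one_mul]
    inv_mem' := fun {a} ha => by
      show a⁻¹ ^ p = 1
      rw [inv_pow, ha, inv_one] }

theorem unique_of_exists_sq [Finite P] {p : ℕ} [hp : Fact p.Prime] (hP : IsPGroup p P)
    (hiso : IsoByOrder P) {a : P} (ha : a ^ p ≠ 1) : CfsgLib.RankOneP.UniqueOrderP p P := by
  have hp1 := hp.out.one_lt
  haveI : Nontrivial P := ⟨⟨a, 1, fun h => ha (by rw [h, one_pow])⟩⟩
  haveI := hP.center_nontrivial
  obtain ⟨⟨z, hz⟩, hzo⟩ : ∃ z : center P, orderOf z = p := by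
    refine exists_prime_orderOf_dvd_card' p ?_
    obtain ⟨k, hk⟩ := (hP.to_subgroup (center P)).exists_card_eq
    rw [hk]
    refine dvd_pow_self p fun h0 => ?_
    have : 1 < Nat.card (center P) := Finite.one_lt_card
    rw [hk, h0, pow_zero] at this
    omega
  rw [Subgroup.orderOf_mk] at hzo
  -- a cyclic subgroup of order p^2
  obtain ⟨b, hb⟩ : ∃ b : P, orderOf b = p ^ 2 := by
    obtain ⟨k, hk⟩ := IsPGroup.iff_orderOf.1 hP a
    have hk2 : 2 ≤ k := by
      by_contra h
      apply ha
      rw [← orderOf_dvd_iff_pow_eq_one, hk]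
      exact Nat.pow_dvd_pow p (show k ≤ 1 by omega) |>.trans (by rw [pow_one])
    refine ⟨a ^ p ^ (k - 2), ?_⟩
    rw [orderOf_pow' _ (pow_ne_zero _ hp.out.ne_zero), hk, Nat.gcd_eq_right (pow_dvd_pow p (by omega)),
      Nat.pow_div (by omega) hp.out.pos, show k - (k - 2) = 2 by omega]
  have key : ∀ w : P, w ^ p = 1 → w ∈ zpowers z := by
    intro w hw
    by_contra hwz
    have hw1 : w ≠ 1 := fun h => hwz (h ▸ one_mem _)
    set E := zpowers z ⊔ zpowers w
    have hzc : ∀ h ∈ zpowers z, h * w = w * h := by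
      intro h hh
      exact (Subgroup.mem_center_iff.1 ((zpowers_le.2 hz) hh) w).symm
    have hE : IsMulCommutative E := comm_sup_zpowers inferInstance hzc
    have hEc : Nat.card E = p ^ 2 := by
      refine le_antisymm ((card_sup_le _ _ ?_).trans ?_) ?_
      · refine le_trans ?_ (Subgroup.centralizer_le_normalizer ..)
        rw [zpowers_le, mem_centralizer_iff]
        exact hzc
      · rw [Nat.card_zpowers, Nat.card_zpowers, hzo, orderOf_eq_prime hw hw1, pow_two]
      · obtain ⟨k, hk⟩ := (hP.to_subgroup E).exists_card_eq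
        have hlt : zpowers z < E := lt_of_le_of_ne le_sup_left fun e => hwz (e ▸ mem_sup_right (mem_zpowers w))
        have h2 : p ^ 1 < p ^ k := by
          rw [← hk, pow_one, ← hzo, ← Nat.card_zpowers]
          refine lt_of_le_of_ne (Subgroup.card_le_of_le hlt.le) fun e => hlt.ne ?_
          exact Subgroup.eq_of_le_of_card_ge hlt.le e.ge
        rw [hk]
        exact Nat.pow_le_pow_right hp.out.pos ((Nat.pow_lt_pow_iff_right hp1).1 h2)
    obtain ⟨e⟩ := hiso (zpowers b) E (by rw [Nat.card_zpowers, hb, hEc])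
    have hexp : ∀ q : E, q ^ p = 1 := by
      intro q
      have hle : E ≤ (powMonoidHomSub E hE p).map E.subtype := by
        refine sup_le (zpowers_le.2 ?_) (zpowers_le.2 ?_)
        · refine ⟨⟨z, mem_sup_left (mem_zpowers z)⟩,
            (show (⟨z, mem_sup_left (mem_zpowers z)⟩ : E) ^ p = 1 from Subtype.ext ?_), rfl⟩
          show z ^ p = 1
          rw [← hzo]; exact pow_orderOf_eq_one z
        · exact ⟨⟨w, mem_sup_right (mem_zpowers w)⟩,
            (show (⟨w, mem_sup_right (mem_zpowers w)⟩ : E) ^ p = 1 from Subtype.ext hw), rfl⟩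
      obtain ⟨q', hq', hqq⟩ := hle q.2
      have h' : (q' : E) ^ p = 1 := hq'
      rw [← Subtype.ext hqq]; exact h'
    have h1 := hexp (e ⟨b, mem_zpowers b⟩)
    rw [← map_pow, MulEquiv.map_eq_one_iff] at h1
    have h2 : b ^ p = 1 := congrArg Subtype.val h1
    have h3 := orderOf_dvd_of_pow_eq_one h2
    rw [hb] at h3
    have := Nat.le_of_dvd hp.out.pos h3
    nlinarith
  intro x y hx hy hx1
  obtain ⟨i, hi⟩ := key x hx
  have : zpowers x = zpowers z := by
    refine Subgroup.eq_of_le_of_card_ge (zpowers_le.2 (key x hx)) ?_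
    rw [Nat.card_zpowers, Nat.card_zpowers, hzo, orderOf_eq_prime hx hx1]
  rw [this]
  exact key y hy

end CfsgLib.EqOrderConj
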